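import Groth.Agent.S0025
import Groth.Agent.CohqB.ProjBC

/-!
# Chow covers by closed subschemes of projective space

* `exists_projective_cover`: a proper scheme over a field is dominated by a closed subscheme of a projective space,
  isomorphically over a dense open.
* `exists_chow`: the same, for a structure morphism `p : X ⟶ Spec k` (unbundled), with the open nonempty.
-/

set_option autoImplicit false
universe u

open CategoryTheory CategoryTheory.Limits AlgebraicGeometry

namespace Groth.Agent.Pic13.H943.Chow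

/-- **Chow cover** of a proper scheme over a field, by a closed subscheme of `P^n_k`. -/
theorem exists_chow (k : Type u) [Field k] (X : Scheme.{u}) (p : X ⟶ Spec (CommRingCat.of k)) [IsProper p] :
    ∃ (n : ℕ) (X' : Scheme.{u}) (f : X' ⟶ X) (j : X' ⟶ CohB1.ProjSpace n k),
      IsClosedImmersion j ∧ j ≫ CohB1.ProjSpace.toSpec n k = f ≫ p ∧
      IsProper f ∧ Surjective f ∧ ∃ U : X.Opens, Dense (U : Set X) ∧ (Nonempty X → (U : Set X).Nonempty) ∧
        IsIso (f ∣_ U) := by
  obtain ⟨n, X', f, j, hj, hjf, hf, hs, U, hU, hiso⟩ := Groth.Agent.S0025.result p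
  let e := Groth.Agent.CohqB.ProjBC.projSpaceOverIso n k
  have h1 : (j ≫ e.hom) ≫ CohB1.ProjSpace.toSpec n k = f ≫ p := by
    rw [Category.assoc, Groth.Agent.CohqB.ProjBC.projSpaceOverIso_hom_toSpec, hjf]
  refine ⟨n, X', f, j ≫ e.hom, ?_, h1, hf, hs, U, hU, fun h => ?_, hiso⟩
  · have : IsProper ((j ≫ e.hom) ≫ CohB1.ProjSpace.toSpec n k) := by
      rw [h1]; infer_instance
    have : IsSeparated (CohB1.ProjSpace.toSpec n k) := by
      have : IsProper (CohB1.ProjSpaceOver.toBase n (Spec (CommRingCat.of k))) :=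
        Groth.Agent.Dix.ProjProper.isProper_toBase n _
      rw [← Groth.Agent.CohqB.ProjBC.projSpaceOverIso_inv_toBase]; infer_instance
    have : IsImmersion (j ≫ e.hom) := inferInstance
    have : IsProper (j ≫ e.hom) := IsProper.of_comp _ (CohB1.ProjSpace.toSpec n k)
    exact IsClosedImmersion.of_isPreimmersion _ (j ≫ e.hom).isClosedMap.isClosed_range
  · exact hU.nonempty

/-- **Chow cover** of a proper scheme over a field, by a closed subscheme of `P^n_k` (bundled form). -/
theorem exists_projective_cover (k : Type u) [Field k] (X : Scheme.{u}) [X.Over (Spec (CommRingCat.of k))]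
    [IsProper (X ↘ Spec (CommRingCat.of k))] :
    ∃ (n : ℕ) (X' : Scheme.{u}) (f : X' ⟶ X) (j : X' ⟶ CohB1.ProjSpace n k),
      IsClosedImmersion j ∧ j ≫ CohB1.ProjSpace.toSpec n k = f ≫ (X ↘ Spec (CommRingCat.of k)) ∧
      IsProper f ∧ Surjective f ∧ ∃ U : X.Opens, Dense (U : Set X) ∧ (Nonempty X → (U : Set X).Nonempty) ∧
        IsIso (f ∣_ U) :=
  exists_chow k X _

end Groth.Agent.Pic13.H943.Chow
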